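import Cfsg.Agent.H319.One.Base
import Cfsg.Agent.H634.Num
import Cfsg.Agent.H634.ElBase

/-!
# S4880, orthogonal groups: numbers (helper156)
-/

set_option autoImplicit false

namespace Cfsg.Agent.H156.One

open Cfsg Subgroup
open Cfsg.Agent.H319.One Cfsg.Agent.H634.El Cfsg.Agent.H634.Num

variable {p n : ℕ} {S : Type*} [Group S]

theorem orderOf_pos_of {p q : ℕ} [hp : Fact p.Prime] (hpq : ¬ p ∣ q) : 0 < orderOf (q : ZMod p) := by
  apply orderOf_pos_iff.2
  rw [isOfFinOrder_iff_pow_eq_one]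
  exact ⟨p - 1, by have := hp.out.two_le; omega, ZMod.pow_card_sub_one_eq_one (zmod_ne_zero hpq)⟩

/-- The common part of the types `B`, `C`, `D`. -/
theorem exists_le [hp : Fact p.Prime] [Finite S] (s : Hyp p n S) {q c A m : ℕ} (hq1 : 1 ≤ q) (hpq : ¬ p ∣ q)
    (hc : ¬ p ∣ c) (h : c * Nat.card S = A * ∏ i ∈ Finset.range m, (q ^ (2 * (i + 1)) - 1)) :
    m < (n + 1) * orderOf (q : ZMod p) := by
  set d := orderOf (q : ZMod p) with hd
  have hdpos : 0 < d := orderOf_pos_of hpq
  have h1 : p ^ (m / d) ∣ ∏ i ∈ Finset.range m, (q ^ (2 * (i + 1)) - 1) := by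
    refine pow_dvd_prod (d := d) (fun j => q ^ (2 * j) - 1) (fun k _ => ?_) m
    apply dvd_sub_one_of_pow hq1
    rw [mul_comm, mul_assoc, pow_mul, hd, pow_orderOf_eq_one, one_pow]
  have h2 : p ^ (m / d) ∣ c * Nat.card S := by
    rw [h]
    exact h1.mul_left _
  have h3 : p ^ (m / d) ∣ Nat.card S := by
    have hc : (p ^ (m / d)).Coprime c := Nat.Coprime.pow_left _ ((Nat.Prime.coprime_iff_not_dvd hp.out).2 hc)
    exact hc.dvd_of_dvd_mul_left h2
  have h4 := s.le_of_dvd h3
  exact (Nat.div_lt_iff_lt_mul hdpos).1 (by omega)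

theorem sum_gt (s : Hyp p n S) (hp : p.Prime) : 2 * (n + 1) < ∑ i ∈ Finset.range n, p ^ i := by
  have h5 := s.five
  have h2 := s.two
  by_cases hn : n = 2
  · subst hn
    have h7 : 7 ≤ p := by
      have h6 : p ≠ 5 := fun e => by have := s.three e; omega
      have h8 : p ≠ 6 := fun e => by rw [e] at hp; exact absurd hp (by norm_num)
      omega
    simp [Finset.sum_range_succ]
    omega
  · obtain ⟨k, rfl⟩ : ∃ k, n = k + 3 := ⟨n - 3, by omega⟩
    clear h2 hn s hp
    induction k with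
    | zero =>
      simp only [Finset.sum_range_succ, Finset.sum_range_zero]
      have : 25 ≤ p ^ 2 := by nlinarith
      norm_num
      omega
    | succ k ih =>
      rw [show k + 1 + 3 = (k + 3) + 1 by ring, Finset.sum_range_succ]
      have h1 : 5 ≤ p ^ (k + 3) := by
        calc 5 ≤ p := h5
          _ = p ^ 1 := (pow_one p).symm
          _ ≤ p ^ (k + 3) := Nat.pow_le_pow_right (by omega) (by omega)
      omega

/-- the numeric hypothesis of `classical_false` -/
theorem lt_of_le [hp : Fact p.Prime] (s : Hyp p n S) {q N : ℕ} (hpq : ¬ p ∣ q)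
    (h : N ≤ 2 * ((n + 1) * orderOf (q : ZMod p))) : N < orderOf (q : ZMod p) * ∑ i ∈ Finset.range n, p ^ i := by
  have h1 := sum_gt s hp.out
  have h2 := orderOf_pos_of hpq
  calc N ≤ 2 * ((n + 1) * orderOf (q : ZMod p)) := h
    _ = orderOf (q : ZMod p) * (2 * (n + 1)) := by ring
    _ < _ := Nat.mul_lt_mul_of_pos_left h1 h2

end Cfsg.Agent.H156.One
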