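import Cfsg.Agent.H156.One.Num
import Cfsg.Agent.H156.One.OrthInv
import Cfsg.Agent.H319.One.Line
import Cfsg.Agent.H634.ElPSp

/-!
# S4880, rows `POmega` (helper156)

`Hyp p n S → False` for the simple orthogonal groups in cross characteristic (type `D_m` : `m ≥ 5`).
-/

set_option autoImplicit false

namespace Cfsg.Agent.H156.One

open Cfsg Subgroup
open Cfsg.Agent.H319.One Cfsg.Agent.LieClassical.QuadForms Cfsg.Agent.LieClassical.OmegaReindex
  Cfsg.Agent.LieClassical.PomegaCard QuadraticMap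

variable {p n : ℕ}

theorem omega_false [hp : Fact p.Prime] {F : Type*} [Field F] [Fintype F] {ι : Type} [Fintype ι]
    [DecidableEq ι] (Q : QuadraticForm F (ι → F)) (hQ : (polarBilin Q).Nondegenerate) (hn : 3 ≤ Fintype.card ι)
    (hs : ∃ u : ι → F, u ≠ 0 ∧ Q u = 0) (hInd : ∀ φ : MulAut (POmega F (⇑Q)), AutOrth.Main.Ind (⇑Q) φ)
    (hpF : ¬ p ∣ Fintype.card F) (h : Hyp p n (POmega F (⇑Q)))
    (hle : Fintype.card ι ≤ 2 * ((n + 1) * orderOf (Fintype.card F : ZMod p))) : False := by
  classical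
  have hp5 := h.five
  let ρ : Omega F (⇑Q) →* Matrix.GeneralLinearGroup ι F := (isometryGroup F (⇑Q)).subtype.comp (Omega F (⇑Q)).subtype
  have hρ : Function.Injective ρ := fun a b hab => Subtype.ext (Subtype.ext hab)
  have hk : ¬ p ∣ Nat.card (QuotientGroup.mk' (center (Omega F (⇑Q)))).ker := by
    rw [QuotientGroup.ker_mk']
    intro hd
    obtain ⟨z, hz⟩ := exists_prime_orderOf_dvd_card' p hd
    have hz2 : z ^ 2 = 1 := by
      apply Subtype.ext
      apply hρ
      apply Units.ext
      rcases (Cfsg.Agent.LieClassical.OrthCenter.mem_center_omega_iff hQ hn hs z.1).1 z.2 with h | h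
      · have h' : ((ρ (z : Omega F (⇑Q)) : Matrix.GeneralLinearGroup ι F) : Matrix ι ι F) = 1 := h
        change ((ρ (z : Omega F (⇑Q)) : Matrix.GeneralLinearGroup ι F) : Matrix ι ι F) ^ 2 = 1
        rw [h', one_pow]
      · have h' : ((ρ (z : Omega F (⇑Q)) : Matrix.GeneralLinearGroup ι F) : Matrix ι ι F) = -1 := h
        change ((ρ (z : Omega F (⇑Q)) : Matrix.GeneralLinearGroup ι F) : Matrix ι ι F) ^ 2 = 1
        rw [h', neg_one_sq]
    have h1 := orderOf_dvd_of_pow_eq_one hz2
    rw [hz] at h1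
    have := Nat.le_of_dvd (by norm_num) h1
    omega
  refine classical_false h ρ hρ (QuotientGroup.mk' _) (QuotientGroup.mk'_surjective _) hk hpF ?_ (lt_of_le h hpF hle)
  intro φ x y hx hy hxy
  obtain ⟨g, σ, e⟩ := exists_semi hQ hn hs (hInd φ) hp.out (by omega) hx hy hxy
  have e' : ((ρ y : Matrix.GeneralLinearGroup ι F) : Matrix ι ι F) =
      (g : Matrix ι ι F) * ((ρ x : Matrix.GeneralLinearGroup ι F) : Matrix ι ι F).map σ *
        ((g⁻¹ : Matrix.GeneralLinearGroup ι F) : Matrix ι ι F) := e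
  rw [e', fx_conj]
  exact (fx_map (σ : F →+* F) _).symm

theorem row_oodd [hp : Fact p.Prime] {F : Type*} [Field F] [Fintype F] {m : ℕ} (hm : 3 ≤ m)
    (ho : Odd (Fintype.card F)) (hpF : ¬ p ∣ Fintype.card F) (h : Hyp p n (POmega F (quadFormOdd m F))) : False := by
  classical
  set q := Fintype.card F with hq
  have hq1 : 1 < q := Fintype.one_lt_card
  have hp5 := h.five
  have hc : ¬ p ∣ 2 := by
    intro h
    have := Nat.le_of_dvd (by norm_num) h
    omega
  have hcard := S0292.result hq.symm ho m hm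
  have h1 := exists_le h hq1.le hpF hc hcard
  have h2 : (2 : F) ≠ 0 := odd_card_iff.1 ho
  have h3 : Fintype.card (Unit ⊕ (Fin m ⊕ Fin m)) = 2 * m + 1 := by
    simp
    ring
  have hInd := AutOrth.Main.all_odd (F := F) hm h2
  rw [← coe_oddForm] at h hInd
  exact omega_false (oddForm m F) (S0292.oddForm_nondegenerate h2 m) (by omega) (S0292.exists_singular (by omega))
    hInd hpF h (by rw [h3, ← hq]; omega)

theorem row_oplus [hp : Fact p.Prime] {F : Type*} [Field F] [Fintype F] {m : ℕ} (hm : 5 ≤ m)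
    (hpF : ¬ p ∣ Fintype.card F) (h : Hyp p n (POmega F (quadFormPlus m F))) : False := by
  classical
  set q := Fintype.card F with hq
  have hq1 : 1 < q := Fintype.one_lt_card
  have hp5 := h.five
  have hcard := S0293.result hq.symm m (by omega)
  have h1 := exists_le h hq1.le hpF (H634.El.gcd_four (by omega)) hcard
  have h3 : Fintype.card (Fin m ⊕ Fin m) = 2 * m := by
    simp
    ring
  have hInd := AutOrth.Main.all_plus (F := F) hm
  rw [← coe_quadPlus] at h hInd
  exact omega_false (quadPlus m F) quadPlus_nondegenerate (by omega) (quadPlus_isotropic (by omega))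
    hInd hpF h (by rw [h3, ← hq]; omega)

theorem row_ominus [hp : Fact p.Prime] {F : Type*} [Field F] [Fintype F] {m : ℕ} (hm : 4 ≤ m) {a b : F}
    (hab : ∀ z₁ z₂ : F, z₁ ^ 2 + a * z₁ * z₂ + b * z₂ ^ 2 = 0 → z₁ = 0 ∧ z₂ = 0)
    (hpF : ¬ p ∣ Fintype.card F) (h : Hyp p n (POmega F (quadFormMinus (m - 1) F a b))) : False := by
  classical
  set q := Fintype.card F with hq
  have hq1 : 1 < q := Fintype.one_lt_card
  have hp5 := h.five
  have hcard := S0294.result hq.symm m hm a b hab
  have h1 := exists_le h hq1.le hpF (H634.El.gcd_four (by omega)) hcard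
  have h3 : Fintype.card ((Fin (m - 1) ⊕ Fin (m - 1)) ⊕ Fin 2) = 2 * m := by
    simp only [Fintype.card_sum, Fintype.card_fin]; omega
  have hInd := AutOrth.Main.all_minus (F := F) (m := m - 1) (by omega) hab
  rw [← coe_quadMinus] at h hInd
  exact omega_false (quadMinus (m - 1) F a b) (quadMinus_nondegenerate hab) (by omega)
    (quadMinus_isotropic (by omega) a b) hInd hpF h (by rw [h3, ← hq]; omega)

end Cfsg.Agent.H156.One
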